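import Cfsg.Prelude.Def_DStar
import Cfsg.Agent.Lib.Loc.FilteredReplacement
import Cfsg.Agent.Lib.PGroup.Basic
import Cfsg.Agent.Lib.Core.PCore
import Cfsg.Agent.Lib.Transfer.SylowIn

/-! The Glauberman–Solomon characteristic subgroup `D*(S)` and the `D*`-theorem. -/

set_option autoImplicit false

namespace Cfsg.Lib.Loc

open Cfsg Subgroup
open scoped commutatorElement

variable {S : Type*} [Group S]

theorem le_centralizer_of_mem_dStarFamily {A : Subgroup S} (hA : A ∈ dStarFamily S) {x : S}
    (h : ⁅⁅A ⊔ zpowers x, A ⊔ zpowers x⁆, A ⊔ zpowers x⁆ = ⊥) : x ∈ centralizer (A : Set S) :=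
  fun a ha => hA.2 x h a ha

theorem center_mem_dStarFamily (S : Type*) [Group S] : center S ∈ dStarFamily S :=
  ⟨inferInstance, fun x _ _ ha => (mem_center_iff.1 ha x).symm⟩

variable [Finite S] [Group.IsNilpotent S]

/-- A member of the `D*` family centralizes every abelian subgroup it normalizes. -/
theorem le_centralizer_of_mem_dStarFamily_of_le_normalizer {A B : Subgroup S}
    (hA : A ∈ dStarFamily S) [IsMulCommutative B] (h : A ≤ normalizer (B : Set S)) :
    A ≤ centralizer (B : Set S) := by
  have := hA.1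
  rw [le_centralizer_iff]
  by_contra hc
  obtain ⟨b, hb, hbA, hb2⟩ := PGroup.exists_mem_not_mem_commutator_mem (S := A ⊔ B)
    (M := centralizer (A : Set S)) le_sup_right (Core.sup_le_normalizer h) hc
  refine hbA (le_centralizer_of_mem_dStarFamily hA ?_)
  rw [commutator_sup_of_abelian, commutator_eq_bot_iff_le_centralizer, Core.centralizer_sup]
  have hn : b ∈ normalizer ((B ⊓ centralizer (A : Set S) : Subgroup S) : Set S) :=
    centralizer_le_normalizer _ (centralizer_anti inf_le_left (le_centralizer B hb))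
  have : ⁅A, zpowers b⁆ ≤ B ⊓ centralizer (A : Set S) := by
    rw [commutator_comm, commutator_le]
    intro y hy a ha
    obtain ⟨n, rfl⟩ := mem_powers_iff_mem_zpowers.2 hy
    exact PGroup.commutator_pow_left_mem hn ⟨le_normalizer_iff_commutator_le_left.1 h
      (commutator_mem_commutator hb ha), hb2 a (mem_sup_left ha)⟩ n
  exact this.trans (le_inf inf_le_right (inf_le_left.trans
    ((le_centralizer B).trans (centralizer_anti (zpowers_le.2 hb)))))

theorem dStar_le_centralizer (B : Subgroup S) [IsMulCommutative B] [B.Normal] :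
    dStar S ≤ centralizer (B : Set S) :=
  sSup_le fun _ hA => le_centralizer_of_mem_dStarFamily_of_le_normalizer hA le_normalizer_of_normal

omit [Finite S] [Group.IsNilpotent S] in
theorem map_mem_dStarFamily {T : Type*} [Group T] (e : S ≃* T) {A : Subgroup S}
    (hA : A ∈ dStarFamily S) : A.map e.toMonoidHom ∈ dStarFamily T := by
  have := hA.1
  refine ⟨inferInstance, fun x hx => ?_⟩
  rintro _ ⟨a, ha, rfl⟩
  obtain ⟨y, rfl⟩ := e.surjective x
  have h : ⁅⁅A ⊔ zpowers y, A ⊔ zpowers y⁆, A ⊔ zpowers y⁆ = ⊥ := by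
    rw [← map_eq_bot_iff_of_injective (f := e.toMonoidHom) _ e.injective, map_commutator,
      map_commutator, Subgroup.map_sup, MonoidHom.map_zpowers]
    exact hx
  simpa using congrArg e (hA.2 y h a ha)

omit [Finite S] [Group.IsNilpotent S] in
instance dStar_characteristic : (dStar S).Characteristic := by
  refine characteristic_iff_map_le.2 fun e => ?_
  exact map_le_iff_le_comap.2 (sSup_le fun A hA => map_le_iff_le_comap.1
    (le_sSup (map_mem_dStarFamily e hA)))

theorem dStar_le_of_maximal {A : Subgroup S} (hn : A.Normal) (hA : IsMulCommutative A)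
    (hmax : ∀ B : Subgroup S, B.Normal → IsMulCommutative B → A ≤ B → B = A) : dStar S ≤ A := by
  refine (dStar_le_centralizer A).trans ?_
  by_contra hc
  obtain ⟨x, hx, hxA, hx2⟩ := PGroup.exists_mem_not_mem_commutator_mem (S := ⊤)
    (M := A) le_top le_normalizer_of_normal hc
  have h1 : IsMulCommutative (zpowers x ⊔ A : Subgroup S) := isMulCommutative_sup (zpowers_le.2 hx)
  have h2 : (zpowers x ⊔ A).Normal := by
    refine Core.normal_of_top_le_normalizer (le_normalizer_iff_commutator_le_left.2 ?_)
    refine Core.commutator_sup_le (le_sup_left.trans le_normalizer) (le_sup_right.trans le_normalizer)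
      ?_ ((commutator_le_left _ _).trans le_sup_right)
    refine le_sup_of_le_right (commutator_le.2 fun y hy s hs => ?_)
    obtain ⟨n, rfl⟩ := mem_powers_iff_mem_zpowers.2 hy
    exact PGroup.commutator_pow_left_mem (le_normalizer_of_normal (mem_top x)) (hx2 s hs) n
  exact hxA (hmax _ h2 h1 le_sup_right ▸ mem_sup_left (mem_zpowers x))

theorem dStar_mem_dStarFamily (S : Type*) [Group S] [Finite S] [Group.IsNilpotent S] :
    dStar S ∈ dStarFamily S := by
  obtain ⟨A, -, ⟨h1, h2⟩, hmax⟩ := Core.exists_maximal_ge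
    (P := fun A : Subgroup S => A.Normal ∧ IsMulCommutative A) (H := ⊥)
    ⟨inferInstance, inferInstance⟩
  refine ⟨isMulCommutative_of_le (dStar_le_of_maximal h1 h2 fun B a b c => hmax B ⟨a, b⟩ c),
    fun x hx a ha => ?_⟩
  have : dStar S ≤ centralizer (zpowers x : Set S) := by
    refine sSup_le fun B hB => le_centralizer_iff.1 (zpowers_le.2
      (le_centralizer_of_mem_dStarFamily hB (le_bot_iff.1 (le_trans ?_ hx.le))))
    have : B ⊔ zpowers x ≤ dStar S ⊔ zpowers x := sup_le_sup_right (le_sSup hB) _
    exact commutator_mono (commutator_mono this this) this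
  exact (this ha x (mem_zpowers x)).symm

theorem dStar_le_of_mem_maxAbelian {A : Subgroup S} (hA : A ∈ maxAbelianSubgroups S) :
    dStar S ≤ A := by
  have hD := dStar_mem_dStarFamily S
  have := hD.1
  by_contra hc
  obtain ⟨A, ⟨hA, hc⟩, hmax⟩ := Set.exists_max_image
    {A : Subgroup S | A ∈ maxAbelianSubgroups S ∧ ¬ dStar S ≤ A}
    (fun A => Nat.card ↥(A ⊓ dStar S)) (Set.toFinite _) ⟨A, hA, hc⟩
  have := hA.1
  have h1 : ¬ dStar S ≤ normalizer (A : Set S) := fun h => hc
    ((le_centralizer_of_mem_dStarFamily_of_le_normalizer hD h).trans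
      (centralizer_eq_of_mem_maxAbelian hA).le)
  obtain ⟨x, hx, hxA, hx2⟩ := PGroup.exists_mem_not_mem_commutator_mem (S := ⊤)
    le_top le_normalizer_of_normal h1
  have hM : eltComm x A ≤ dStar S :=
    (eltComm_le_commutator hx A).trans (commutator_le_left _ _)
  have : IsMulCommutative (eltComm x A) := isMulCommutative_of_le hM
  refine (hmax (eltRepl x A) ⟨eltRepl_mem_maxAbelian x hA, fun h => h1 (h.trans (sup_le
    (eltComm_le_iff.2 fun a _ => hx2 a trivial) (inf_le_left.trans le_normalizer)))⟩).not_gt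
    (Core.card_lt_card_of_lt (lt_of_le_of_ne (le_inf (le_sup_of_le_right (inf_le_inf_left _
      ((le_centralizer _).trans (centralizer_anti hM)))) inf_le_right) fun e => hxA ?_))
  exact mem_normalizer_of_eltComm_le ((le_inf le_sup_left hM).trans (e.ge.trans inf_le_left))

theorem dStar_le_centerThompson (S : Type*) [Group S] [Finite S] [Group.IsNilpotent S] :
    dStar S ≤ thompsonSubgroupA S ⊓ centralizer (thompsonSubgroupA S : Set S) := by
  obtain ⟨A, hA⟩ := exists_mem_maxAbelian S
  refine le_inf ((dStar_le_of_mem_maxAbelian hA).trans (le_thompsonSubgroupA hA))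
    (le_centralizer_iff.1 (sSup_le fun B hB => ?_))
  have := hB.1
  exact (le_centralizer B).trans (centralizer_anti (dStar_le_of_mem_maxAbelian hB))

section ambient

variable {G : Type*} [Group G]

theorem dStarOf_le (P : Subgroup G) : dStarOf P ≤ P := map_subtype_le _

theorem normalizer_le_normalizer_dStarOf (P : Subgroup G) :
    normalizer (P : Set G) ≤ normalizer (dStarOf P : Set G) :=
  Core.normalizer_le_normalizer_map_subtype _

theorem dStarOf_isMulCommutative [Finite G] (P : Subgroup G) [Group.IsNilpotent P] :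
    IsMulCommutative (dStarOf P) := by
  have := (dStar_mem_dStarFamily P).1
  unfold dStarOf; infer_instance

theorem mem_centralizer_dStarOf [Finite G] {P : Subgroup G} [Group.IsNilpotent P] {x : G}
    (hx : x ∈ P) (h : ⁅⁅dStarOf P ⊔ zpowers x, dStarOf P ⊔ zpowers x⁆, dStarOf P ⊔ zpowers x⁆ = ⊥) :
    x ∈ centralizer (dStarOf P : Set G) := by
  rintro _ ⟨a, ha, rfl⟩
  refine congrArg Subtype.val ((dStar_mem_dStarFamily P).2 ⟨x, hx⟩ ?_ a ha)
  rw [← Core.map_subtype_eq_bot_iff, map_commutator, map_commutator, Subgroup.map_sup,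
    MonoidHom.map_zpowers]
  exact h

theorem dStarOf_le_centralizer [Finite G] {P B : Subgroup G} [Group.IsNilpotent P]
    [IsMulCommutative B] (hB : B ≤ P) (h : dStarOf P ≤ normalizer (B : Set G)) :
    dStarOf P ≤ centralizer (B : Set G) := by
  have : IsMulCommutative (B.subgroupOf P) := inferInstance
  have h1 := le_centralizer_of_mem_dStarFamily_of_le_normalizer (dStar_mem_dStarFamily P)
    (B := B.subgroupOf P) (by
      rw [← subgroupOf_normalizer_eq hB]; exact Core.map_subtype_le_iff.1 h)
  rw [Core.centralizer_subgroupOf_eq hB] at h1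
  exact Core.map_subtype_le_iff.2 h1

theorem le_dStarOf {P W : Subgroup G} [IsMulCommutative W] (hW : W ≤ P)
    (h : ∀ x ∈ P, ⁅⁅W ⊔ zpowers x, W ⊔ zpowers x⁆, W ⊔ zpowers x⁆ = ⊥ →
      x ∈ centralizer (W : Set G)) : W ≤ dStarOf P := by
  refine (Core.le_map_subtype_iff hW).2 (le_sSup ⟨inferInstance, fun x hx a ha => ?_⟩)
  rw [← Core.map_subtype_eq_bot_iff, map_commutator, map_commutator, Subgroup.map_sup,
    MonoidHom.map_zpowers, map_subgroupOf_eq_of_le hW] at hx
  exact Subtype.ext (h x x.2 hx a ha)

open Transfer in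
/-- The `D*`-theorem of Glauberman and Solomon. -/
theorem dStarOf_normal [Finite G] {p : ℕ} [Fact p.Prime]
    (hc : centralizer (pCore p G : Set G) ≤ pCore p G)
    (hst : ∀ (P : Subgroup G) [P.Normal], IsPGroup p P → IsPStableOn p P) (S : Sylow p G) :
    (dStarOf (S : Subgroup G)).Normal := by
  have := S.isPGroup'.isNilpotent
  set D := dStarOf (S : Subgroup G) with hD
  have hDab : IsMulCommutative D := dStarOf_isMulCommutative _
  have hSD : (S : Subgroup G) ≤ normalizer (D : Set G) :=
    le_normalizer.trans (normalizer_le_normalizer_dStarOf _)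
  have hTS : pCore p G ≤ S := Core.pCore_le_sylow S
  have hDT : D ≤ pCore p G := by
    intro a ha
    have h1 : ⁅⁅pCore p G, zpowers a⁆, zpowers a⁆ = ⊥ := by
      rw [commutator_eq_bot_iff_le_centralizer]
      refine le_trans ?_ ((le_centralizer D).trans (centralizer_anti (zpowers_le.2 ha)))
      exact (commutator_mono le_rfl (zpowers_le.2 ha)).trans
        (le_normalizer_iff_commutator_le_right.1 (hTS.trans hSD))
    have h2 := hst _ (Core.pCore_isPGroup p G) a h1
    rw [← Core.comap_pCore_mk' _ ((Core.pCore_isPGroup p G).to_le hc)]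
    exact h2
  have hconj : ∀ g : G, g ⋆ D ≤ pCore p G := fun g =>
    (conj_mono g hDT).trans (conj_eq_self_of_normal g _).le
  have hcomm : ∀ g : G, D ≤ centralizer ((g ⋆ D : Subgroup G) : Set G) := fun g => by
    refine dStarOf_le_centralizer ((hconj g).trans hTS) (hDT.trans ?_)
    rw [← conj_normalizer, ← conj_eq_self_of_normal g (pCore p G)]
    exact conj_mono g (hTS.trans hSD)
  set W := normalClosure (D : Set G) with hW
  have hW' : W = ⨆ g : G, g ⋆ D := Core.normalClosure_eq_iSup_conj D
  have hWT : W ≤ pCore p G := hW' ▸ iSup_le hconj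
  have hWab : IsMulCommutative W := by
    rw [← le_centralizer_iff_isMulCommutative]
    refine normalClosure_le_normal (SetLike.coe_subset_coe.2 ?_)
    rw [hW', Core.centralizer_iSup]
    exact le_iInf hcomm
  suffices h : W ≤ D by rw [le_antisymm (le_normalClosure : D ≤ W) h]; infer_instance
  refine le_dStarOf (hWT.trans hTS) fun x hx h => ?_
  set L := (pCore p (G ⧸ centralizer (W : Set G))).comap (QuotientGroup.mk' _) with hL
  have hxL : x ∈ L := hst W ((Core.pCore_isPGroup p G).to_le hWT) x (le_bot_iff.1 (le_trans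
    (commutator_mono (commutator_mono le_sup_left le_sup_right) le_sup_right) h.le))
  have hCL : centralizer (W : Set G) ≤ L := Core.le_comap_mk'' _ _
  have hP : ¬ p ∣ ((S : Subgroup G) ⊓ L).relIndex L := by
    rw [inf_relIndex_right]; exact sylow_not_dvd_relIndex_normal S L
  have hLP : L ≤ centralizer (W : Set G) ⊔ ((S : Subgroup G) ⊓ L) := by
    rw [← map_pResidual_sup_eq inf_le_right hP]
    refine sup_le (le_sup_of_le_left (map_subtype_pResidual_le_iff.2 fun g hg hcop => ?_))
      (by rw [map_pResidual_sup_eq inf_le_right hP]; exact le_sup_right)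
    obtain ⟨k, hk⟩ := Core.isPGroup_subgroup_iff.1 (Core.pCore_isPGroup p _) _ hg
    rw [← map_pow, QuotientGroup.mk'_apply, QuotientGroup.eq_one_iff] at hk
    exact mem_of_pow_mem_of_coprime hk (Nat.Coprime.pow_right k hcop)
  rw [hW', Core.centralizer_iSup, mem_iInf]
  intro g
  obtain ⟨l, hl, hlg⟩ := frattini_argument (K := ⊤) inf_le_right (S.isPGroup'.to_inf_left) hP
    le_normalizer_of_normal (mem_top g)
  obtain ⟨u, hu, c, hc, rfl⟩ := exists_mul_of_mem_sup' (inf_le_right.trans le_normalizer_of_normal)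
    (hLP hl)
  have hn : c * g ∈ normalizer (((S : Subgroup G) ⊓ L : Subgroup G) : Set G) := by
    simpa [mul_assoc] using mul_mem (inv_mem (le_normalizer hu)) hlg
  have e1 : (c * g) ⋆ D = g ⋆ D := by
    rw [← conj_conj]
    exact conj_eq_self_of_mem_centralizer (centralizer_anti (hW' ▸ le_iSup (fun g => g ⋆ D) g) hc)
  rw [← e1, ← conj_centralizer, mem_conj]
  refine mem_centralizer_dStarOf ((mem_normalizer_iff''.1 hn x).1 ⟨hx, hxL⟩).1 ?_
  have h2 : D ⊔ zpowers ((c * g)⁻¹ * x * (c * g)) ≤ (c * g)⁻¹ ⋆ (W ⊔ zpowers x) := by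
    rw [conj_sup, conj_zpowers, inv_inv, conj_eq_self_of_normal]
    exact sup_le_sup_right le_normalClosure _
  refine le_bot_iff.1 ((commutator_mono (commutator_mono h2 h2) h2).trans ?_)
  rw [← conj_commutator, ← conj_commutator, h]
  exact (conj_eq_bot_iff.2 rfl).le

end ambient

end Cfsg.Lib.Loc
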